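import Cfsg.Agent.H439.CC.Defs

/-! The equation lemmas of `coL`, realized once (so that the modules above do not hold copies of them). -/

set_option autoImplicit false

namespace Cfsg.Agent.H617.EqD

open Cfsg.Agent.H439.CC

theorem coL_one (K : Finset ℕ) : coL [] K = if K = ∅ then 1 else 0 := by rw [coL]

theorem coL_two {k : ℕ} {ds : List ℕ} {K : Finset ℕ} (h : k ∉ K) : coL (k :: ds) K = 0 := by
  rw [coL, dif_neg h]

theorem coL_def (l : List ℕ) (K : Finset ℕ) : coL l K = coL l K := by rw [coL.eq_def]

end Cfsg.Agent.H617.EqD
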